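import Mathlib

/-!
# Divisors of the order over the field with `2 ^ r` elements (S4884, own characteristic, `q = 2`; helper673)

`factor` : `r` a prime greater than `2 ^ d - 1` for all `d` in the list of degrees; an odd divisor `m` of
`(2 ^ r) ^ N * ∏ ((2 ^ r) ^ d - 1)` is `a * b`, `a ∣ ∏ (2 ^ d - 1)`, `b ≡ 1` (mod `r`).
-/

set_option autoImplicit false

namespace Cfsg.Agent.H673.OC

/-- divisors of a number all of whose prime divisors are `1` modulo `r` -/
theorem modEq_one_of_primes {r : ℕ} : ∀ {b : ℕ}, b ≠ 0 → (∀ l : ℕ, l.Prime → l ∣ b → l ≡ 1 [MOD r]) → b ≡ 1 [MOD r] := by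
  intro b
  induction b using Nat.recOnMul with
  | zero => exact fun h => absurd rfl h
  | one => exact fun _ _ => rfl
  | prime p hp => exact fun _ h => h p hp dvd_rfl
  | mul a b ha hb =>
    intro h0 h
    have h1 : a ≠ 0 := fun h' => h0 (by rw [h', zero_mul])
    have h2 : b ≠ 0 := fun h' => h0 (by rw [h', mul_zero])
    have := (ha h1 fun l hl hd => h l hl (Dvd.dvd.mul_right hd b)).mul (hb h2 fun l hl hd => h l hl (Dvd.dvd.mul_left hd a))
    simpa using this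

/-- prime divisors of `1 + x + ... + x ^ (r - 1)` -/
theorem prime_modEq_one {r l x : ℕ} (hr : r.Prime) (hl : l.Prime) (hx : 1 < x) (hxr : x - 1 < r)
    (h : l ∣ ∑ i ∈ Finset.range r, x ^ i) : l ≡ 1 [MOD r] := by
  have : Fact l.Prime := ⟨hl⟩
  have h1 : (x : ZMod l) ^ r = 1 := by
    have h2 : (∑ i ∈ Finset.range r, (x : ZMod l) ^ i) = 0 := by
      have := (ZMod.natCast_eq_zero_iff _ l).2 h
      push_cast at this
      exact this
    have h3 := geom_sum_mul (x : ZMod l) r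
    rw [h2, zero_mul] at h3
    exact (sub_eq_zero.1 h3.symm)
  by_cases h2 : (x : ZMod l) = 1
  · exfalso
    have h3 : (∑ i ∈ Finset.range r, (x : ZMod l) ^ i) = 0 := by
      have := (ZMod.natCast_eq_zero_iff _ l).2 h
      push_cast at this
      exact this
    rw [h2] at h3
    simp only [one_pow, Finset.sum_const, Finset.card_range, nsmul_eq_mul, mul_one] at h3
    have h4 : l ∣ r := (ZMod.natCast_eq_zero_iff _ _).1 h3
    have h5 : l = r := (Nat.prime_dvd_prime_iff_eq hl hr).1 h4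
    have h6 : (((x - 1 : ℕ)) : ZMod l) = 0 := by
      rw [Nat.cast_sub hx.le, h2, Nat.cast_one, sub_self]
    have h7 : l ∣ x - 1 := (ZMod.natCast_eq_zero_iff _ _).1 h6
    have h8 := Nat.le_of_dvd (by omega) h7
    omega
  · have h3 : orderOf (x : ZMod l) = r := by
      rcases (Nat.dvd_prime hr).1 (orderOf_dvd_of_pow_eq_one h1) with h4 | h4
      · exact absurd (orderOf_eq_one_iff.1 h4) h2
      · exact h4
    have h4 : (x : ZMod l) ≠ 0 := by
      intro h5
      rw [h5, zero_pow hr.ne_zero] at h1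
      exact zero_ne_one h1
    have h5 : (x : ZMod l) ^ (l - 1) = 1 := ZMod.pow_card_sub_one_eq_one h4
    have h6 : r ∣ l - 1 := by
      rw [← h3]
      exact orderOf_dvd_of_pow_eq_one h5
    exact ((Nat.modEq_iff_dvd' hl.one_lt.le).2 h6).symm

/-- **odd divisors of the order over the big field** -/
theorem factor {J : Type*} (s : Finset J) (d : J → ℕ) (hd : ∀ j ∈ s, 0 < d j) {N r : ℕ} (hr : r.Prime)
    (hlt : ∀ j ∈ s, 2 ^ d j - 1 < r) {m : ℕ} (hm : ¬ 2 ∣ m)
    (hdvd : m ∣ (2 ^ r) ^ N * ∏ j ∈ s, ((2 ^ r) ^ d j - 1)) :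
    ∃ a b, m = a * b ∧ a ∣ ∏ j ∈ s, (2 ^ d j - 1) ∧ b ≡ 1 [MOD r] := by
  have h1 : m ∣ ∏ j ∈ s, ((2 ^ r) ^ d j - 1) := by
    refine Nat.Coprime.dvd_of_dvd_mul_left ?_ hdvd
    rw [← pow_mul]
    exact Nat.Coprime.pow_right _ ((Nat.Prime.coprime_iff_not_dvd Nat.prime_two).2 hm).symm
  have hgt : ∀ j ∈ s, 1 < 2 ^ d j := fun j hj => Nat.one_lt_two_pow (hd j hj).ne'
  have h2 : ∏ j ∈ s, ((2 ^ r) ^ d j - 1) = (∏ j ∈ s, (2 ^ d j - 1)) * ∏ j ∈ s, ∑ i ∈ Finset.range r, (2 ^ d j) ^ i := by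
    rw [← Finset.prod_mul_distrib]
    refine Finset.prod_congr rfl fun j hj => ?_
    have h3 := Nat.geomSum_eq (m := 2 ^ d j) (hgt j hj) r
    have h4 : (2 ^ d j - 1) ∣ (2 ^ d j) ^ r - 1 := by
      have := Nat.sub_dvd_pow_sub_pow (2 ^ d j) 1 r
      rwa [one_pow] at this
    rw [h3, Nat.mul_div_cancel' h4, ← pow_mul, ← pow_mul, mul_comm]
  rw [h2] at h1
  obtain ⟨a, b, ha, hb, rfl⟩ := exists_dvd_and_dvd_of_dvd_mul h1
  refine ⟨a, b, rfl, ha, modEq_one_of_primes (fun h0 => ?_) fun l hl hlb => ?_⟩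
  · rw [h0, mul_zero] at hm
    exact hm (dvd_zero 2)
  · obtain ⟨j, hj, hlj⟩ := (Prime.dvd_finsetProd_iff hl.prime _).1 (hlb.trans hb)
    exact prime_modEq_one hr hl (hgt j hj) (hlt j hj) hlj

end Cfsg.Agent.H673.OC
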