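import Cfsg.Agent.H673.OC.Glaub
import Cfsg.Agent.Characters.Values

/-!
# Odd degrees (S4884, own characteristic, `q = 2`; helper673)

`odd_of_corr` : the degree of a character of the fixed points is odd if its Glauberman correspondent has odd
degree (with the arithmetic of `Arith.factor`);
`sum_zero` : the transfer of `∑_{X} χ = 0 for all χ of even degree` from `G` to the group `D` of fixed points.
-/

set_option autoImplicit false
set_option linter.unusedSectionVars false

namespace Cfsg.Agent.H673.OC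

open Cfsg
open scoped ComplexConjugate
open Cfsg.Agent.Characters.Core
open Cfsg.Agent.H593.GlaubermanP

variable {G : Type*} [Group G] [Fintype G] {D : Type*} [Group D] [Fintype D] {ι : D →* G}
  {S : Type*} [Group S] [MulDistribMulAction S G] {r : ℕ} [Fact r.Prime]

theorem charDegree_le (β : IrrCharacter D) : charDegree (β : D → ℂ) ≤ Nat.card D :=
  Nat.le_of_dvd Nat.card_pos (charDegree_dvd β.2)

theorem norm_apply_le (β : IrrCharacter D) (d : D) : ‖(β : D → ℂ) d‖ ≤ Nat.card D := by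
  have h0 := Cfsg.Agent.Blocks.Basic.irr_one_eq_charDegree β.2
  obtain ⟨m, ρ, hρ⟩ := isIrr_isCharacter β.2
  have h1 := Cfsg.Agent.Characters.Values.norm_character_le ρ d
  have h2 : ρ.character 1 = (Module.finrank ℂ (Fin m → ℂ) : ℂ) := Representation.char_one ρ
  rw [hρ, h0] at h2
  have h3 : charDegree (β : D → ℂ) = Module.finrank ℂ (Fin m → ℂ) := by exact_mod_cast h2
  rw [hρ, ← h3] at h1
  exact h1.trans (by exact_mod_cast charDegree_le β)

/-- **the degree of the correspondent is odd, so is the degree** -/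
theorem odd_of_corr {χ : IrrCharacter G} {β : IrrCharacter D} {e : ℤ}
    (hc : Corr S ι r (χ : G → ℂ) (β : D → ℂ) e) (hr : 2 * Nat.card D < r)
    (hfac : ∀ m, ¬ 2 ∣ m → m ∣ Nat.card G → ∃ a b, m = a * b ∧ a ≤ Nat.card D ∧ b ≡ 1 [MOD r])
    (hχ : ¬ 2 ∣ charDegree (χ : G → ℂ)) : ¬ 2 ∣ charDegree (β : D → ℂ) := by
  obtain ⟨a, b, hab, ha, hb⟩ := hfac _ hχ (charDegree_dvd χ.2)
  have h1 := hc.cong 1
  rw [map_one, Cfsg.Agent.Blocks.Basic.irr_one_eq_charDegree χ.2,
    Cfsg.Agent.Blocks.Basic.irr_one_eq_charDegree β.2] at h1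
  have h2 : ((charDegree (χ : G → ℂ) : ℕ) : ℤ) ≡ e * (charDegree (β : D → ℂ) : ℕ) [ZMOD r] := by
    refine Cong.int_modEq (Nat.Prime.ne_zero Fact.out) ?_
    push_cast
    exact h1
  have h3 : ((charDegree (χ : G → ℂ) : ℕ) : ℤ) ≡ a [ZMOD r] := by
    have h4 : charDegree (χ : G → ℂ) ≡ a [MOD r] := by
      rw [hab]
      simpa using (Nat.ModEq.refl a).mul hb
    exact (Int.natCast_modEq_iff).2 h4
  have h4 : (a : ℤ) ≡ e * (charDegree (β : D → ℂ) : ℕ) [ZMOD r] := h3.symm.trans h2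
  have h5 := charDegree_le β
  have h6 := Cfsg.Agent.Blocks.Basic.charDegree_pos β.2
  have ha0 : a ≠ 0 := by
    rintro rfl
    rw [zero_mul] at hab
    rw [hab] at hχ
    exact hχ (dvd_zero 2)
  have h7 : a = charDegree (β : D → ℂ) := by
    rcases hc.sign with rfl | rfl
    · rw [one_mul] at h4
      have h8 := Int.natCast_modEq_iff.1 h4
      exact Nat.ModEq.eq_of_lt_of_lt h8 (by omega) (by omega)
    · exfalso
      have h8 : (r : ℤ) ∣ (a : ℤ) + (charDegree (β : D → ℂ) : ℕ) := by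
        have := h4.symm.dvd
        rw [neg_one_mul, sub_neg_eq_add] at this
        exact this
      have h9 : r ∣ a + charDegree (β : D → ℂ) := by exact_mod_cast h8
      have h10 := Nat.le_of_dvd (by omega) h9
      omega
  rw [← h7]
  intro h8
  exact hχ (by rw [hab]; exact Dvd.dvd.mul_right h8 b)

/-- **the transfer** -/
theorem sum_zero (h : Setup S ι r) (hr : 2 * Nat.card D < r)
    (hfac : ∀ m, ¬ 2 ∣ m → m ∣ Nat.card G → ∃ a b, m = a * b ∧ a ≤ Nat.card D ∧ b ≡ 1 [MOD r])
    (X : Finset G) (hX : ∀ (s : S), ∀ g ∈ X, s • g ∈ X) [DecidablePred fun d : D => ι d ∈ X]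
    (h0 : ∀ χ : IrrCharacter G, 2 ∣ charDegree (χ : G → ℂ) → ∑ g ∈ X, (χ : G → ℂ) g = 0)
    {β : IrrCharacter D} {c : ℤ}
    (hβ : ∑ d ∈ Finset.univ.filter (fun d : D => ι d ∈ X), (β : D → ℂ) d =
      (c : ℂ) * (Finset.univ.filter (fun d : D => ι d ∈ X)).card)
    (h2 : 2 ∣ charDegree (β : D → ℂ)) :
    ∑ d ∈ Finset.univ.filter (fun d : D => ι d ∈ X), (β : D → ℂ) d = 0 := by
  classical
  obtain ⟨χ, e, hc⟩ := exists_corr' h β
  have h3 : 2 ∣ charDegree (χ : G → ℂ) := by
    by_contra h4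
    exact odd_of_corr hc hr hfac h4 h2
  have h4 := hc.subset_cong h (isIntegral_irr χ) X hX
  rw [h0 χ h3, hβ] at h4
  set N := (Finset.univ.filter (fun d : D => ι d ∈ X)).card with hN
  have h5 : (0 : ℤ) ≡ e * (c * N) [ZMOD r] := by
    refine Cong.int_modEq (Nat.Prime.ne_zero Fact.out) ?_
    push_cast
    exact h4
  have h6 : (r : ℤ) ∣ c * N := by
    have h7 := h5.symm.dvd
    rw [zero_sub, dvd_neg] at h7
    rcases hc.sign with rfl | rfl
    · rwa [one_mul] at h7
    · rwa [neg_one_mul, dvd_neg] at h7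
  have hrp : r.Prime := Fact.out
  have hNle : N ≤ Nat.card D := by
    rw [Nat.card_eq_fintype_card]
    exact Finset.card_le_univ _
  rcases Nat.eq_zero_or_pos N with hN0 | hN0
  · rw [hβ, hN0]
    simp
  have h7 : (r : ℤ) ∣ c := by
    rcases (Nat.prime_iff_prime_int.1 hrp).dvd_or_dvd h6 with h8 | h8
    · exact h8
    · exfalso
      have h9 : r ∣ N := by exact_mod_cast h8
      have := Nat.le_of_dvd hN0 h9
      omega
  have h8 : |c| ≤ Nat.card D := by
    have h9 : ‖∑ d ∈ Finset.univ.filter (fun d : D => ι d ∈ X), (β : D → ℂ) d‖ ≤ (N : ℝ) * (Nat.card D : ℝ) := by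
      refine (norm_sum_le _ _).trans ?_
      refine (Finset.sum_le_card_nsmul _ _ _ fun d _ => norm_apply_le β d).trans ?_
      rw [nsmul_eq_mul]
    rw [hβ, norm_mul, Complex.norm_intCast, Complex.norm_natCast] at h9
    have h10 : |(c : ℝ)| ≤ (Nat.card D : ℝ) := by
      have hN' : (0 : ℝ) < N := by exact_mod_cast hN0
      nlinarith
    exact_mod_cast h10
  have h9 : c = 0 := by
    by_contra h10
    have h11 := Int.le_of_dvd (abs_pos.2 h10) ((dvd_abs _ _).2 h7)
    omega
  rw [hβ, h9]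
  simp

end Cfsg.Agent.H673.OC
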