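import Cfsg.Agent.H40.OC.Fin
import Cfsg.Agent.H673.OC.Fix
import Cfsg.Agent.H673.OC.Odd
import Cfsg.Agent.H673.OC.Arith

/-!
# The groups over the field with two elements (S4884, own characteristic; helper673)

`mG_zero` : `Y'` the group over the field with `2 ^ r` elements, `Y` the fixed points of the Galois group; if the means `mG` of
the characters of `Y'` of even degree vanish, then so do the means of the characters of `Y` of even degree.
-/

set_option autoImplicit false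
set_option linter.unusedSectionVars false

open scoped ComplexConjugate
open Cfsg

namespace Cfsg.Agent.H673.OC

open Cfsg.Agent.Characters
open Cfsg.Agent.H53.HC Cfsg.Agent.H641.Gow Cfsg.Agent.H148.GG Cfsg.Agent.H40.OC
open Cfsg.Agent.H593.GlaubermanP (Setup Inv)

open CoxeterSystem Cfsg.Agent.ChevalleyStructure.CoxeterGeom Cfsg.Agent.Tits.Roots Cfsg.Agent.Tits.Core
  Cfsg.Agent.Tits.Exchange Cfsg.Agent.Nodes.Reps Cfsg.Agent.Nodes.BNOf Cfsg.Agent.Nodes.StabComb
  Cfsg.Agent.Nodes.Bruhat Cfsg.Agent.Nodes.OppDec Cfsg.Agent.Nodes.LeviDec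

variable {I W Y Y' : Type*} [Fintype I] [DecidableEq I] [Group W] [Group Y] [Group Y'] {M : CoxeterMatrix I}
  {cs : CoxeterSystem M W} {A : I → I → ℤ} {h : IsCartan M A} {p p' : ℕ} {T : Subgroup Y} {n : I → Y}
  {X : (I → ℤ) → Subgroup Y} {T' : Subgroup Y'} {n' : I → Y'} {X' : (I → ℤ) → Subgroup Y'} {φ : Y →* Y'}

/-- the coordinates of the image -/
theorem Hm.cor [Finite W] (H : Hm cs h T n X T' n' X' φ) (R : RGD cs h p T n X) (R' : RGD cs h p' T' n' X') (i : I)
    {u : Y} (hu : u ∈ UU cs h X) : ((cor R' i ⟨φ u, H.U hu⟩ : X' (sr i)) : Y') = φ (cor R i ⟨u, hu⟩ : X (sr i)) := by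
  obtain ⟨x, hx, v, hv, rfl⟩ := dec R i hu
  rw [cor_mul R i hx hv]
  have hx' : φ x ∈ X' (sr i) := H.X _ (isRoot_sr cs h i) (sr_nonneg i) x hx
  have hv' : φ v ∈ RGD.Sup X' (RGD.PosNe cs h i) := H.Sup (fun z hz => ⟨hz.1, hz.2.1⟩) hv
  have h1 : (⟨φ (x * v), H.U hu⟩ : ↥(UU cs h X')) = ⟨φ x * φ v, by rw [← map_mul]; exact H.U hu⟩ :=
    Subtype.ext (map_mul φ x v)
  rw [h1, cor_mul R' i hx' hv']

variable {F F' : I → Type*} [∀ i, Field (F i)] [∀ i, Field (F' i)]

theorem IsReg.iff_cor [Finite W] (R : RGD cs h p T n X) (D : Adj T X F) (hD : ∀ i, Function.Injective (D.x i)) {u : Y} :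
    IsReg R D u ↔ ∃ hu : u ∈ UU cs h X, ∀ i, ((cor R i ⟨u, hu⟩ : X (sr i)) : Y) ≠ 1 := by
  unfold IsReg
  refine exists_congr fun hu => forall_congr' fun i => not_congr ?_
  rw [co_apply, ← map_one (D.x i), (hD i).eq_iff]
  exact ⟨fun h1 => congrArg Subtype.val h1, fun h1 => Subtype.ext h1⟩

/-- regular elements and compatible homomorphisms -/
theorem Hm.isReg [Finite W] (H : Hm cs h T n X T' n' X' φ) (R : RGD cs h p T n X) (R' : RGD cs h p T' n' X')
    (D : Adj T X F) (D' : Adj T' X' F') (hD : ∀ i, Function.Injective (D.x i)) (hD' : ∀ i, Function.Injective (D'.x i))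
    (hφ : Function.Injective φ) (hG : GG cs h T X = ⊤) {u : Y} : IsReg R' D' (φ u) ↔ IsReg R D u := by
  rw [IsReg.iff_cor R D hD, IsReg.iff_cor R' D' hD']
  constructor
  · rintro ⟨hu, h1⟩
    have hu0 : u ∈ UU cs h X := H.mem_U R R' hφ (hG ▸ Subgroup.mem_top u) hu
    refine ⟨hu0, fun i h2 => h1 i ?_⟩
    rw [H.cor R R' i hu0, h2, map_one]
  · rintro ⟨hu, h1⟩
    refine ⟨H.U hu, fun i h2 => h1 i (hφ ?_)⟩
    rw [← H.cor R R' i hu, h2, map_one]

/-- the sum over the regular elements -/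
theorem sum_reg [Finite W] [Fintype Y] (R : RGD cs h p T n X) (D : Adj T X F) [Fintype (UU cs h X)]
    [DecidablePred (IsReg R D)] (χ : Y → ℂ) :
    ∑ u ∈ Sys.Reg (UU cs h X) (DU R D), χ u = ∑ y ∈ Finset.univ.filter (IsReg R D), χ y := by
  refine Finset.sum_bij (fun u _ => (u : Y)) (fun u hu => ?_) (fun u _ v _ huv => Subtype.ext huv) (fun y hy => ?_)
    (fun _ _ => rfl)
  · rw [Finset.mem_filter]
    exact ⟨Finset.mem_univ _, (mem_Reg_iff R D).1 hu⟩
  · have h1 := (Finset.mem_filter.1 hy).2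
    exact ⟨⟨y, h1.1⟩, (mem_Reg_iff R D).2 h1, rfl⟩

theorem card_reg [Finite W] [Fintype Y] (R : RGD cs h p T n X) (D : Adj T X F) [Fintype (UU cs h X)]
    [DecidablePred (IsReg R D)] :
    (Sys.Reg (UU cs h X) (DU R D)).card = (Finset.univ.filter (IsReg R D)).card := by
  have h1 := sum_reg R D (fun _ => 1)
  simp only [Finset.sum_const, nsmul_eq_mul, mul_one] at h1
  exact_mod_cast h1

theorem mG_eq_div [Finite W] [Fintype Y] (R : RGD cs h p T n X) (D : Adj T X F)
    [DecidablePred (IsReg R D)] (χ : Y → ℂ) :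
    mG R D χ = (∑ y ∈ Finset.univ.filter (IsReg R D), χ y) / (Finset.univ.filter (IsReg R D)).card := by
  have : Fintype (UU cs h X) := Fintype.ofFinite _
  rw [mG_eq, mr_def, sum_reg R D, card_reg R D]

theorem card_reg_ne [Finite W] [Fintype Y] (R : RGD cs h p T n X) (D : Adj T X F)
    [DecidablePred (IsReg R D)] : (Finset.univ.filter (IsReg R D)).card ≠ 0 := by
  have : Fintype (UU cs h X) := Fintype.ofFinite _
  rw [← card_reg R D]
  exact (sysU R D).reg_nonempty

/-- **the descent to the field with two elements** -/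
theorem mG_zero [Finite W] [Finite Y] [Finite Y'] [∀ i, Finite (F i)]
    (R : RGD cs h p T n X) (D : Adj T X F) (R' : RGD cs h p T' n' X') (D' : Adj T' X' F')
    (hG : GG cs h T X = ⊤) (hG' : GG cs h T' X' = ⊤)
    (hD : ∀ i, Function.Injective (D.x i)) (hD' : ∀ i, Function.Injective (D'.x i))
    {S : Type*} [Group S] [MulDistribMulAction S Y'] {r : ℕ} [hrp : Fact r.Prime] (hS : IsPGroup r S)
    (H : Fx cs h T n X T' n' X' φ S) (hr : 2 * Nat.card Y < r)
    (hfac : ∀ m, ¬ 2 ∣ m → m ∣ Nat.card Y' → ∃ a b, m = a * b ∧ a ≤ Nat.card Y ∧ b ≡ 1 [MOD r])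
    (h0 : ∀ χ : IrrCharacter Y', 2 ∣ charDegree (χ : Y' → ℂ) → mG R' D' (χ : Y' → ℂ) = 0)
    (χ : IrrCharacter Y) (hχ : 2 ∣ charDegree (χ : Y → ℂ)) : mG R D (χ : Y → ℂ) = 0 := by
  classical
  have : Fintype Y := Fintype.ofFinite _
  have : Fintype Y' := Fintype.ofFinite _
  have hY : 0 < Nat.card Y := Nat.card_pos
  have hset : Setup S φ r :=
    { inj := H.inj
      fixed := fun g => H.mem_iff R R' hG hG' g
      pgroup := hS
      ndvd := fun hd => by
        obtain ⟨a, b, hab, ha, hb⟩ := hfac r (fun h2 => by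
          have := (Nat.prime_dvd_prime_iff_eq Nat.prime_two hrp.out).1 h2
          omega) hd
        have h1 : b ∣ r := ⟨a, by rw [hab, mul_comm]⟩
        rcases (Nat.dvd_prime hrp.out).1 h1 with h2 | h2
        · rw [h2, mul_one] at hab
          omega
        · rw [h2] at hb
          have h3 : r ≡ 0 [MOD r] := (Nat.modEq_zero_iff_dvd).2 dvd_rfl
          have h4 := (Nat.modEq_zero_iff_dvd).1 (hb.symm.trans h3)
          exact hrp.out.one_lt.ne' (Nat.dvd_one.1 h4) }
  have hreg : ∀ y : Y, φ y ∈ (Finset.univ.filter (IsReg R' D') : Finset Y') ↔ IsReg R D y := by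
    intro y
    rw [Finset.mem_filter]
    exact ⟨fun h1 => (H.hm.isReg R R' D D' hD hD' H.inj hG).1 h1.2, fun h1 => ⟨Finset.mem_univ _,
      (H.hm.isReg R R' D D' hD hD' H.inj hG).2 h1⟩⟩
  have hfilter : (Finset.univ.filter fun y : Y => φ y ∈ (Finset.univ.filter (IsReg R' D') : Finset Y')) =
      Finset.univ.filter (IsReg R D) := Finset.filter_congr fun y _ => hreg y
  obtain ⟨c, hc⟩ := mG_isInt R D (Core.isIrr_isCharacter χ.2)
  have hN := card_reg_ne R D
  have hc' : ∑ y ∈ Finset.univ.filter (IsReg R D), (χ : Y → ℂ) y = (c : ℂ) * (Finset.univ.filter (IsReg R D)).card := by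
    rw [mG_eq_div, div_eq_iff (by exact_mod_cast hN)] at hc
    exact hc
  have key := sum_zero hset hr hfac (Finset.univ.filter (IsReg R' D')) (fun s g hg => by
    rw [Finset.mem_filter] at hg ⊢
    refine ⟨Finset.mem_univ _, ?_⟩
    have h1 := (H.act s).isReg R' R' D' D' hD' hD' (MulAction.injective s) hG' (u := g)
    exact h1.2 hg.2) (fun χ' h2 => by
    have h3 := h0 χ' h2
    rw [mG_eq_div, div_eq_zero_iff] at h3
    exact h3.resolve_right (by exact_mod_cast card_reg_ne R' D')) (β := χ) (c := c)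
    (by rw [hfilter]; exact hc') hχ
  rw [hfilter] at key
  rw [mG_eq_div, key, zero_div]

/-- the order formulas -/
theorem fac_of_card {J : Type*} (s : Finset J) (d : J → ℕ) (hd : ∀ j ∈ s, 0 < d j) {N N' r a b : ℕ} (hrp : r.Prime)
    (ha : a = 2 ^ N * ∏ j ∈ s, (2 ^ d j - 1)) (hb : b = (2 ^ r) ^ N' * ∏ j ∈ s, ((2 ^ r) ^ d j - 1)) (hr : a < r) :
    ∀ m, ¬ 2 ∣ m → m ∣ b → ∃ x y, m = x * y ∧ x ≤ a ∧ y ≡ 1 [MOD r] := by
  intro m hm hmb
  have hpos : 0 < ∏ j ∈ s, (2 ^ d j - 1) := Finset.prod_pos fun j hj => by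
    have := Nat.one_lt_two_pow (hd j hj).ne'
    omega
  have hpow : 0 < 2 ^ N := by positivity
  obtain ⟨x, y, h1, h2, h3⟩ := factor s d hd hrp (N := N') (fun j hj => by
    have h4 : 2 ^ d j - 1 ∣ a := by
      rw [ha]
      exact Dvd.dvd.mul_left (Finset.dvd_prod_of_mem _ hj) _
    have h5 := Nat.le_of_dvd (by rw [ha]; positivity) h4
    omega) hm (by rw [← hb]; exact hmb)
  refine ⟨x, y, h1, ?_, h3⟩
  have h4 : x ∣ a := by
    rw [ha]
    exact Dvd.dvd.mul_left h2 _
  exact Nat.le_of_dvd (by rw [ha]; positivity) h4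

end Cfsg.Agent.H673.OC
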